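import Cfsg.Agent.H3.Down2
import Cfsg.Agent.H7.FF1

/-! # Fixed point spaces, primitive character degrees and class sizes -/

open Cfsg H7
open scoped ComplexConjugate commutatorElement
set_option maxSynthPendingDepth 3

namespace H3
open H3 Subgroup
open H2 (cj)

noncomputable section
variable {G : Type*} [Group G] {A B C F K L M N P Q U V W X Y : Subgroup G} {χ ϑ : G → ℂ} {p : ℕ} {g x : G} [Finite G]

theorem relIndex_dvd_of_nrm (l : W ≤ M) (n : M ≤ nrm W) (C : Subgroup G) : C.relIndex W ∣ C.relIndex M := by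
  have a := card_sup_mul_card_inf (A := C ⊓ M) (B := W) (inf_le_right.trans n)
  have b := relIndex_mul_card_inf C W
  have c := relIndex_mul_card' (le_sup_left : C ⊓ M ≤ C ⊓ M ⊔ W)
  rw [inf_assoc, inf_eq_right.2 l, ← c, ← b] at a
  have d : (C ⊓ M).relIndex (C ⊓ M ⊔ W) = C.relIndex W :=
    Nat.eq_of_mul_eq_mul_right (Nat.mul_pos (card_pos' (C ⊓ M)) (card_pos' (C ⊓ W))) (by linear_combination a)
  rw [← inf_relIndex_right C M, ← relIndex_mul_relIndex _ _ M le_sup_left (sup_le inf_le_right l), d]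
  exact dvd_mul_right _ _

theorem rel_cen_dvd (l : U ≤ W) (n : W ≤ nrm U) (hx : x ∈ nrm U) :
    (cen1 x).relIndex U * (cen1 (ev (qm U) x)).relIndex (im (qm U) W) ∣ (cen1 x).relIndex W := by
  rw [← relIndex_pre n]
  generalize e : pre (qm U) (cen1 (ev (qm U) x)) = P
  have a : cen1 x ⊓ W ≤ P ⊓ W := fun y ⟨m, k⟩ => ⟨e ▸ mem_pre.2 ⟨n k, mem_cen1.2 (by
    rw [← ev_mul (n k) hx, ← ev_mul hx (n k), mem_cen1.1 m])⟩, k⟩
  rw [← inf_relIndex_right (cen1 x) W, ← relIndex_mul_relIndex _ _ W a inf_le_right, inf_relIndex_right]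
  refine Nat.mul_dvd_mul_right ?_ _
  have b : U ≤ P ⊓ W := le_inf (e ▸ (kr_qm U).ge.trans (kr_le_pre _ _)) l
  have := relIndex_dvd_of_nrm b (inf_le_right.trans n) (cen1 x ⊓ W)
  rwa [← inf_relIndex_right _ U, inf_assoc, inf_eq_right.2 l, inf_relIndex_right] at this

theorem card_le_relIndex_mul' (h : X ⊓ Y ⊓ V = ⊥) : ord V ≤ X.relIndex V * Y.relIndex V := by
  have := relIndex_mul_card_inf (X ⊓ Y) V
  rw [h, card_bot, mul_one] at this
  exact this ▸ relIndex_inf_le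

theorem irr_fix (c : V ≤ cen V) (n : A ⊔ zpowers g ≤ nrm V) (gA : zpowers g ≤ nrm A) (ab : ⁅A, A⁆ ≤ cen V)
    (nc : ¬ A ≤ cen V) (ir : ∀ W ≤ V, A ⊔ zpowers g ≤ nrm W → W = ⊥ ∨ W = V) :
    ∃ a ∈ A, ∀ n ∈ A, ord V ≤ (cen1 (g * n)).relIndex V * (cen1 (g * n * a)).relIndex V := by
  have hA := le_sup_left.trans n
  have nA : A ⊔ zpowers g ≤ nrm A := sup_le (le_nrm_self A) gA
  have v0 : V ≠ ⊥ := fun z => nc (by rw [z, cen_bot]; exact le_top)
  obtain ⟨B, ⟨b1, b2, b3⟩, b4⟩ := Set.Finite.exists_maximal (s := {B | A ⊓ cen V ≤ B ∧ B ≤ A ∧ ⁅V, B⁆ ≠ V})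
    (Set.toFinite _) ⟨_, le_rfl, inf_le_left, by rw [comm_eq_bot'.2 inf_le_right]; exact v0.symm⟩
  have b5 : ∀ D ≤ A, ¬ D ≤ B → ⁅V, B ⊔ D⁆ = V := fun D d k => by_contra fun z =>
    k (le_sup_right.trans (b4 ⟨b1.trans le_sup_left, sup_le b2 d, z⟩ le_sup_left))
  have nB : A ≤ nrm B := le_nrm_of_comm_le' b2 ((le_inf (comm_le_of_le le_rfl le_rfl) ab).trans b1)
  have lV : ∀ D ≤ A, ⁅V, D⁆ ≤ V := fun D d => comm_le_left (d.trans hA)
  by_cases k : g ∈ nrm B
  · have z := comm_eq_bot'.1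
      ((ir _ (lV B b2) (nrm_commutator n (sup_le nB (zpowers_le.2 k)))).resolve_right b3)
    obtain ⟨a, a1, a2⟩ := Set.not_subset.1 nc
    have a3 := zpowers_le.2 a1
    have e : ⁅V, zpowers a⁆ = V := (lV _ a3).antisymm ((b5 _ a3 fun m => a2 (z (m (mem_zpowers a)))).ge.trans
      (comm_sup_le' (le_nrm_of_le_cen (z.trans (cen_anti (lV _ a3)))) (nrm_commutator (a3.trans hA) (le_nrm_self _))
        ((comm_eq_bot'.2 z).le.trans bot_le) le_rfl))
    have f := card_comm_zp c (hA a1)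
    rw [e, Nat.mul_eq_left (card_pos' V).ne', card_eq_one, cen_zpowers] at f
    refine ⟨a, a1, fun y _ => card_le_relIndex_mul' (eq_bot_iff.2 fun v ⟨⟨v1, v2⟩, v3⟩ => f.le ⟨v3, mem_cen1.2 ?_⟩)⟩
    have := mem_cen1.1 v2
    rw [← mul_assoc, mem_cen1.1 v1, mul_assoc (g * y), mul_assoc (g * y)] at this
    exact mul_left_cancel this
  refine ⟨1, one_mem _, fun y m => ?_⟩
  have cA : cj g B ≤ A := (cj_mono g b2).trans (cj_of_mem_nrm (gA (mem_zpowers g))).le
  have e := b5 _ cA fun z => k (mem_nrm_of_cj_le z)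
  have nC : A ≤ nrm (cj g B) := le_nrm_of_comm_le' cA ((le_inf (comm_le_of_le le_rfl le_rfl) ab).trans (by
    rw [← cj_of_mem_nrm (nrm_inf nA (nrm_cen n) (mem_sup_right (mem_zpowers g)))]; exact cj_mono g b1))
  have nn := nrm_sup (nrm_commutator hA nB) (nrm_commutator hA nC)
  have f : ord V ≤ ord ⁅V, B⁆ * ord ⁅V, B⁆ := by
    have d := card_sup_dvd (A := ⁅V, B⁆) (B := ⁅V, cj g B⁆)
      (le_nrm_of_le_cen (le_cen_mono c (lV B b2) (lV _ cA)))
    have u : ⁅V, cj g B⁆ = cj g ⁅V, B⁆ := by rw [cj_commutator, cj_of_mem_nrm (n (mem_sup_right (mem_zpowers g)))]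
    have w := card_le_of_le (e.ge.trans (comm_sup_le' (b2.trans nn) (cA.trans nn) le_sup_left le_sup_right))
    refine w.trans (Nat.le_of_dvd (Nat.mul_pos (card_pos' _) (card_pos' _)) ?_)
    rwa [u, card_cj, ← u] at d
  have z : (⨅ h : ↥(A ⊔ zpowers g), cj h.1 ⁅V, B⁆) = ⊥ := by
    have l : (⨅ h : ↥(A ⊔ zpowers g), cj h.1 ⁅V, B⁆) ≤ ⁅V, B⁆ := (iInf_le _ 1).trans (cj_one _).le
    refine (ir _ (l.trans (lV B b2)) (le_nrm_of_cj_le fun h hh => le_iInf fun t => ?_)).resolve_right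
      fun z => b3 ((lV B b2).antisymm (z.ge.trans l))
    exact cj_le_iff.2 ((iInf_le _ ((⟨h, hh⟩ : ↥(A ⊔ zpowers g))⁻¹ * t)).trans (cj_mul _ _ _).le)
  have gy : g * y ∈ A ⊔ zpowers g := mul_mem (mem_sup_right (mem_zpowers g)) (mem_sup_left m)
  have s : A ⊔ zpowers g ≤ zpowers (g * y) ⊔ A := sup_le le_sup_right (zpowers_le.2 (by
    simpa using mul_mem (mem_sup_left (mem_zpowers (g * y))) (mem_sup_right (inv_mem m))))
  have i : cen1 (g * y) ⊓ ⁅V, B⁆ = ⊥ := eq_bot_iff.2 fun v ⟨v1, v2⟩ => z.le (mem_iInf.2 fun h => by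
    obtain ⟨s, s1, t, t1, e⟩ := (mem_sup_nrm ((zpowers_le.2 gy).trans nA)).1 (s h.2)
    rw [← e, cj_mul, cj_of_mem_nrm (nrm_commutator hA nB t1), mem_cj, mul_assoc,
      mem_cen.1 (cen_zpowers (g * y) ▸ v1 : v ∈ cen (zpowers (g * y))) s s1 |>.symm, inv_mul_cancel_left]
    exact v2)
  have j := relIndex_mul_card_inf (cen1 (g * y)) ⁅V, B⁆
  rw [i, card_bot, mul_one] at j
  have := j ▸ relIndex_le_of_le_right (H := cen1 (g * y)) (lV B b2) (relIndex_pos _ _).ne'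
  rw [mul_one]
  exact f.trans (Nat.mul_le_mul this this)

theorem sec_fix [Fintype A] (c : V ≤ cen V) (gA : zpowers g ≤ nrm A) (ab : ⁅A, A⁆ ≤ cen V)
    (nt : ∀ U W, U < W → W ≤ V → A ≤ nrm U → ¬ ⁅A, W⁆ ≤ U) (l : W ≤ V) (n : A ⊔ zpowers g ≤ nrm W) :
    ord W ^ ord A ≤ (∏ n : A, (cen1 (g * n)).relIndex W) ^ 2 := by
  induction' e : ord W using Nat.strong_induction_on with k ih generalizing W
  subst e
  by_cases w : W = ⊥
  · subst w; simp
  obtain ⟨U, u1, u2, u3⟩ := exists_max_inv_lt (A ⊔ zpowers g) w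
  have i := ih _ (card_lt_of_lt u1) (u1.le.trans l) u2 rfl
  have nW : W ≤ nrm U := le_nrm_of_le_cen (le_cen_mono c l (u1.le.trans l))
  have nA := le_sup_left.trans u2
  have ng := u2 (mem_sup_right (mem_zpowers g))
  have s : im (qm U) A ⊔ zpowers (ev (qm U) g) = im (qm U) (A ⊔ zpowers g) := by
    rw [im_sup nA (zpowers_le.2 ng), im_zpowers ng]
  obtain ⟨_, a1, a2⟩ := irr_fix (V := im (qm U) W) (A := im (qm U) A) (g := ev (qm U) g)
    (im_le_cen _ (le_cen_mono c l l)) (s ▸ im_le_nrm _ n) (by rw [← im_zpowers ng]; exact im_le_nrm _ gA)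
    (by rw [← im_commutator nA nA]; exact im_le_cen _ (ab.trans (cen_anti l)))
    (fun z => nt U W u1 l nA (((im_le_cen_iff nA nW).1 z).trans (kr_qm U).le)) fun X x1 x2 => by
      rw [← im_pre_of_le x1]
      rcases u3 (pre (qm U) X) ((kr_qm U).ge.trans (kr_le_pre _ _))
        ((pre_mono _ x1).trans (pre_im_of_le nW ((kr_qm U).le.trans u1.le)).le) (le_nrm_pre u2 (s ▸ x2)) with z | z
      exacts [.inl (by rw [z, im_qm_self]), .inr (by rw [z])]
  obtain ⟨a, a3, rfl⟩ := (mem_im_of_le nA).1 a1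
  have j : ord (im (qm U) W) ^ ord A ≤ (∏ n : A, (cen1 (ev (qm U) (g * n))).relIndex (im (qm U) W)) ^ 2 := by
    rw [pow_two]
    nth_rw 2 [← Fintype.prod_equiv (Equiv.mulRight (⟨a, a3⟩ : A)) _ _ fun _ => rfl]
    rw [← Finset.prod_mul_distrib, Nat.card_eq_fintype_card (α := A), ← Finset.card_univ, ← Finset.prod_const]
    refine Finset.prod_le_prod' fun y _ => ?_
    have := a2 _ (ev_mem_im y.2)
    rwa [← ev_mul ng (nA y.2), ← ev_mul (mul_mem ng (nA y.2)) (nA a3), mul_assoc] at this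
  rw [card_im nW, kr_qm] at j
  rw [← relIndex_mul_card' u1.le, mul_pow]
  refine (Nat.mul_le_mul j i).trans ?_
  rw [← mul_pow, ← Finset.prod_mul_distrib]
  exact Nat.pow_le_pow_left (Finset.prod_le_prod' fun y _ => Nat.le_of_dvd (relIndex_pos _ _)
    ((mul_comm _ _).dvd.trans (rel_cen_dvd u1.le nW (mul_mem ng (nA y.2))))) 2

theorem min_cen [Fact p.Prime] [V.Normal] [N.Normal] (hV : IsPGroup p V) (m : ∀ W ≤ V, ⊤ ≤ nrm W → W = ⊥ ∨ W = V)
    (hQ : IsPGroup p Q) (l : N ≤ cen V ⊔ Q) : N ≤ cen V := by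
  by_cases z : V = ⊥
  · rw [z, cen_bot]; exact le_top
  refine le_cen_symm (inf_eq_left.1 ((m _ inf_le_left (nrm_inf (H1B.top_nrm V) (nrm_cen (H1B.top_nrm N)))).resolve_left
    fun e => pgroup_inf_cen_ne_bot' hQ hV (le_nrm_of_normal _ _) z (eq_bot_iff.2 (le_trans ?_ e.le))))
  exact le_inf inf_le_left ((le_cen_sup (inf_le_left.trans (le_cen_symm le_rfl)) inf_le_right).trans (cen_anti l))

theorem min_cen_nilp [V.Normal] [F.Normal] (m : ∀ W ≤ V, ⊤ ≤ nrm W → W = ⊥ ∨ W = V) (hF : Group.IsNilpotent F) :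
    F ≤ cen V := by
  by_cases z : V = ⊥
  · rw [z, cen_bot]; exact le_top
  rcases m _ inf_le_left (nrm_inf (H1B.top_nrm V) (H1B.top_nrm F)) with e | e
  · exact le_cen_symm (le_cen_of_inf_eq_bot (le_nrm_of_normal _ _) (le_nrm_of_normal _ _) e)
  exact le_cen_symm (inf_eq_left.1 ((m _ inf_le_left (nrm_inf (H1B.top_nrm V) (nrm_cen (H1B.top_nrm F)))).resolve_left
    (nilp_inf_cen_ne_bot hF (inf_eq_left.1 e) (le_nrm_of_normal _ _) z)))

theorem chief_fix [Fact p.Prime] [Group.IsSolvable G] [V.Normal] (ea : EA p V)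
    (m : ∀ W ≤ V, ⊤ ≤ nrm W → W = ⊥ ∨ W = V) (nc : ¬ ⊤ ≤ cen V) {Γ : Type*} [Group Γ] [Fintype Γ] (φ : Γ → G)
    (hφ : ∀ n, ∃ y, ∀ g, φ (g * y) = φ g * n) :
    ord V ^ Nat.card Γ ≤ (∏ g : Γ, (cen1 (φ g)).relIndex V) ^ 2 := by
  classical
  obtain ⟨N, n1, -, n2, n3⟩ := exists_min_inv_gt (A := ⊤) (lt_of_le_not_ge le_top nc) (le_nrm_self _)
  haveI := H1B.normal_of n2
  haveI := Fintype.ofFinite N
  have nC := nrm_cen (H1B.top_nrm V)
  obtain ⟨ab, q, k, hq, e, -⟩ := chief_ab ((sm_of_solv _).solv (le_top.trans nC)) n1 (le_top.trans nC) n2 nC n3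
  haveI := Fact.mk hq
  obtain ⟨Q, hQ⟩ := H1B.exists_syl q N
  have s := hQ.sup_eq_of_relIndex n1.le e
  have qp : q ≠ p := fun z => by subst z; exact n1.not_ge (min_cen ea.isPGroup m hQ.isPGroup s.ge)
  have z : V ⊓ cen N = ⊥ := (m _ inf_le_left (nrm_inf (H1B.top_nrm V) (nrm_cen n2))).resolve_right
    fun z => n1.not_ge (le_cen_symm (inf_eq_left.1 z))
  have key : ∀ g : G, ord V ^ ord N ≤ (∏ n : N, (cen1 (g * (n : G))).relIndex V) ^ 2 := fun g : G =>
    sec_fix ea.le_cen (le_nrm_of_normal _ _) ab (fun U W u w n c => by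
      have co : Cop Q U := cop_of_pgroup hQ.isPGroup (coprime_of_isPGroup (ea.of_le (u.le.trans w)).isPGroup
        ((Nat.coprime_primes hq Fact.out).2 qp)).symm (hQ.le.trans n)
      refine u.not_ge ((co.sup_cen_of_comm_le u.le ((Subgroup.commutator_comm _ _).le.trans
        ((commutator_mono hQ.le le_rfl).trans c))).ge.trans (sup_le le_rfl (le_trans ?_ (z.le.trans bot_le))))
      exact le_inf (inf_le_left.trans w) (s ▸ le_cen_sup (inf_le_left.trans (w.trans (le_cen_symm le_rfl))) inf_le_right))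
      le_rfl (le_nrm_of_normal _ _)
  have t := Finset.prod_le_prod' fun g (_ : g ∈ Finset.univ) => key (φ g)
  rw [Finset.prod_const, Finset.card_univ, Finset.prod_pow, Finset.prod_comm, Finset.prod_congr rfl
    (g := fun _ => ∏ g : Γ, (cen1 (φ g)).relIndex V) fun n _ => by
      obtain ⟨y, hy⟩ := hφ n
      exact Fintype.prod_equiv (Equiv.mulRight y) _ _ fun g => by rw [Equiv.coe_mulRight, hy],
    Finset.prod_const, Finset.card_univ, ← Nat.card_eq_fintype_card, ← Nat.card_eq_fintype_card, ← pow_mul, mul_comm,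
    pow_mul, ← pow_mul _ _ 2, mul_comm, pow_mul] at t
  exact (Nat.pow_le_pow_iff_left (card_pos' N).ne').1 t

theorem not_cen_of_sq [hp : Fact p.Prime] (ea : EA p V) (m : ∀ W ≤ V, ⊤ ≤ nrm W → W = ⊥ ∨ W = V) (v : V ≠ ⊥)
    {f : ℕ} (e : f ^ 2 = ord V) : ¬ ⊤ ≤ cen V := fun c => by
  obtain ⟨x, x1, x2⟩ := exists_orderOf_of_pgroup ea.isPGroup v
  have := (m _ (zpowers_le.2 x1) (le_nrm_of_le_cen (c.trans (cen_anti (zpowers_le.2 x1))))).resolve_left
    fun z => ne_one_of_orderOf x2 (zpowers_eq_bot.1 z)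
  rw [← this, Nat.card_zpowers, x2] at e
  exact hp.out.prime.not_isSquare ⟨f, e.symm.trans (pow_two f)⟩

theorem qp_class_aux [Fintype G] [hp : Fact p.Prime] [Group.IsSolvable G] [M.Normal] [F.Normal] (a : Irr G χ)
    (q : IsQuasiPrimitive χ) (hF : Group.IsNilpotent F) (hP : IsPGroup p P) (l : M ≤ F ⊔ P) {σ : G → G}
    (hσ : ∀ g, σ g ∈ M) [K.Normal] (b : Irr K ϑ↾K) {e : ℕ} (c : χ↾K = (e : ℂ) • ϑ↾K) :
    Nat.card G * (dg ϑ).factorization p ≤ ∑ g, ((cen1 (g * σ g)).relIndex K).factorization p := by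
  induction' w : ord K using Nat.strong_induction_on with k ih generalizing K ϑ e
  subst w
  have e0 : (e : ℂ) ≠ 0 := fun z => a.deg_ne_zero (by simpa [z] using congrFun c 1)
  by_cases w : K = ⊥
  · subst w
    rw [show dg ϑ = 1 from dg_eq ((b.deg_eq_one_of_commutator fun x y => by
      rw [Subsingleton.elim (x * y * x⁻¹ * y⁻¹) 1]).trans Nat.cast_one.symm)]
    simp
  obtain ⟨L, l1, l2, l3⟩ := exists_max_inv_lt ⊤ w
  haveI := H1B.normal_of l2
  have nL := fun X => le_nrm_of_normal X L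
  have mL : ∀ x, x ∈ nrm L := fun x => l2 (mem_top x)
  obtain ⟨ab, r, k, hr, e1, ea⟩ := chief_ab ((sm_of_solv _).solv (nL K)) l1 (nL K) (H1B.top_nrm K) l2 l3
  have i : ⊤ ≤ iA K ϑ := inertia_eq_iA (N := K) (α := ϑ) ▸ (inertia_eq_top_of_res a.isClassFunction e0 c).ge
  have cL : χ↾L = (e : ℂ) • ϑ↾L := funext fun x => congrFun c ⟨x, l1.le x.2⟩
  have dv : ∀ g, ((cen1 g).relIndex L).factorization p +
      ((cen1 (ev (qm L) g)).relIndex (im (qm L) K)).factorization p ≤ ((cen1 g).relIndex K).factorization p := fun g => by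
    rw [← Finsupp.add_apply, ← Nat.factorization_mul (relIndex_pos _ _).ne' (relIndex_pos _ _).ne']
    exact Nat.factorization_le_factorization_of_dvd_right (rel_cen_dvd l1.le (nL K) (mL g))
      (Nat.mul_pos (relIndex_pos _ _) (relIndex_pos _ _)).ne' (relIndex_pos _ _).ne'
  rcases down_irr_or l1.le (H1B.top_nrm K) l2 l3 ab b i with d | d
  · exact (ih _ (card_lt_of_lt l1) d cL rfl).trans (Finset.sum_le_sum fun g _ => le_self_add.trans (dv _))
  obtain ⟨θ, f, t1, t2⟩ := q L inferInstance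
  obtain ⟨β, rfl⟩ := exists_amb θ
  have f0 : (f : ℂ) ≠ 0 := fun z => a.deg_ne_zero (by simpa [z] using congrFun t2 1)

  obtain ⟨u, -, -, u1⟩ := res_eq_smulA l1.le (le_top.trans (inertia_eq_iA (N := L) (α := β) ▸
    (inertia_eq_top_of_res a.isClassFunction f0 t2).ge)) b t1 fun z => f0 (by
      rw [← mul_one (f : ℂ), ← t1.inner_self, ← inner_smul_left, ← t2, ← mul_zero (e : ℂ), ← z, ← inner_smul_left, ← cL])
  have u2 := sq_of_vanish l1.le b t1 u1 d
  have u0 : u ≠ 0 := fun z => by rw [z] at u2; exact (relIndex_pos _ _).ne u2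
  have u3 : dg ϑ = u * dg β := dg_eq (by
    have := congrFun u1 1
    rw [Nat.cast_mul, show ((dg β : ℕ) : ℂ) = β 1 from t1.deg.symm]; exact this)
  rw [u3, Nat.factorization_mul u0 (show dg β ≠ 0 from t1.dg_pos.ne'), Finsupp.add_apply, mul_add, add_comm]
  refine le_trans (add_le_add (ih _ (card_lt_of_lt l1) t1 t2 rfl) ?_)
    (Finset.sum_add_distrib.ge.trans (Finset.sum_le_sum fun g _ => dv _))
  by_cases rp : p = r
  swap
  · rw [Nat.factorization_eq_zero_of_not_dvd fun z => rp ((Nat.prime_dvd_prime_iff_eq hp.out hr).1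
      (hp.out.dvd_of_dvd_pow (e1 ▸ u2 ▸ z.trans (dvd_pow_self _ two_ne_zero))))]
    simp
  subst rp
  have nn : ∀ X : Subgroup G, X.Normal → (im (qm L) X).Normal := fun X _ => H1B.normal_of (by
    rw [← im_qm_dom L]; exact im_le_nrm _ (le_nrm_of_normal _ _))
  haveI := nn K inferInstance; haveI := nn M inferInstance; haveI := nn F inferInstance
  have m : ∀ W ≤ im (qm L) K, ⊤ ≤ nrm W → W = ⊥ ∨ W = im (qm L) K := fun X x1 x2 => by
    rw [← im_pre_of_le x1]
    rcases l3 (pre (qm L) X) ((kr_qm L).ge.trans (kr_le_pre _ _))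
      ((pre_mono _ x1).trans (pre_im_of_le (nL K) ((kr_qm L).le.trans l1.le)).le)
      (le_nrm_pre l2 (le_top.trans x2)) with z | z
    exacts [.inl (by rw [z, im_qm_self]), .inr (by rw [z])]
  have cM : im (qm L) M ≤ cen (im (qm L) K) := min_cen ea.isPGroup m (isPGroup_im (qm L) hP)
    ((im_mono _ l).trans ((im_sup (nL F) (nL P)).le.trans (sup_le_sup_right (min_cen_nilp m (nilp_im _ hF)) _)))
  have o : u ^ 2 = ord (im (qm L) K) := by rw [card_im (nL K), kr_qm, u2]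
  haveI : Group.IsSolvable (Quo L) := by unfold Quo; infer_instance
  have t := chief_fix ea m (not_cen_of_sq ea m (fun z => l1.not_ge (((im_eq_bot_iff (nL K)).1 z).trans (kr_qm L).le)) o)
    (ev (qm L)) fun n => by
      obtain ⟨y, -, rfl⟩ := (mem_im_of_le le_rfl).1 ((im_qm_dom L).ge (mem_top n))
      exact ⟨y, fun g => ev_mul (mL g) (mL y)⟩
  rw [← o, ← pow_mul, mul_comm, pow_mul, Nat.pow_le_pow_iff_left two_ne_zero] at t
  have s : ∀ g, (cen1 (ev (qm L) (g * σ g))).relIndex (im (qm L) K) = (cen1 (ev (qm L) g)).relIndex (im (qm L) K) :=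
    fun g => by
      rw [← inf_relIndex_right, ← inf_relIndex_right (cen1 (ev (qm L) g)), ev_mul (mL _) (mL _)]
      congr 1; ext v
      refine and_congr_left fun h => ?_
      have := comm_of_le_cen cM (ev_mem_im (hσ g)) h
      refine mem_cen1.trans (Iff.trans ?_ mem_cen1.symm)
      rw [mul_assoc, this, ← mul_assoc, ← mul_assoc, mul_left_inj]
  simp only [s]
  choose j hj using fun g => relIndex_pgroup ea.isPGroup (cen1 (ev (qm L) g))
  simp only [hj, Finset.prod_pow_eq_pow_sum] at t ⊢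
  simp only [hp.out.factorization_pow, Finsupp.single_eq_same]
  refine (Nat.pow_le_pow_iff_right hp.out.one_lt).1 (le_trans ?_ t)
  rw [mul_comm, pow_mul]
  exact Nat.pow_le_pow_left (Nat.ordProj_le p u0) _

theorem qp_class [Fintype G] [hp : Fact p.Prime] [Group.IsSolvable G] [M.Normal] [F.Normal] (a : Irr G χ)
    (q : IsQuasiPrimitive χ) (hF : Group.IsNilpotent F) (hP : IsPGroup p P) (l : M ≤ F ⊔ P) :
    ∃ g, ∀ m ∈ M, (dg χ).factorization p ≤ (cen1 (g * m)).index.factorization p := by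
  by_contra! h
  choose σ h1 h2 using h
  have := qp_class_aux (K := ⊤) (e := 1) a q hF hP l h1 (irr_top.2 a) (by simp)
  simp only [relIndex_top_right] at this
  refine this.not_gt ((Finset.sum_lt_sum_of_nonempty Finset.univ_nonempty fun g _ => h2 g).trans_eq ?_)
  rw [Finset.sum_const, Finset.card_univ, Nat.card_eq_fintype_card, smul_eq_mul]

end
end H3
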