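import Cfsg.Agent.H3.SylB
import Cfsg.Agent.H4.Trv

/-! # Small linear algebra facts -/

namespace H3
open Module Matrix
variable {F : Type*} [Field F]

theorem exists_lin_map {V : Type*} [AddCommGroup V] [Module F V] [FiniteDimensional F V] {U W : Submodule F V}
    (h : finrank F U = finrank F W) : ∃ g : V ≃ₗ[F] V, U.map g.toLinearMap = W ∧ LinearEquiv.det g = 1 := by
  by_cases z : W = ⊥
  · subst z
    rw [finrank_bot, Submodule.finrank_eq_zero] at h
    exact ⟨1, by simp [h], map_one _⟩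
  obtain ⟨U', a⟩ := U.exists_isCompl
  obtain ⟨W', b⟩ := W.exists_isCompl
  have k : finrank F U' = finrank F W' := by
    have := Submodule.finrank_add_eq_of_isCompl a
    have := Submodule.finrank_add_eq_of_isCompl b
    omega
  let g := ((U.prodEquivOfIsCompl U' a).symm.trans ((LinearEquiv.ofFinrankEq _ _ h).prodCongr
    (LinearEquiv.ofFinrankEq _ _ k))).trans (W.prodEquivOfIsCompl W' b)
  obtain ⟨u, m, n⟩ := W.ne_bot_iff.1 z
  obtain ⟨φ, -, e⟩ := H4.exists_dual_eq (F := F) (Z := ⊥) (x := u) n (((LinearEquiv.det g)⁻¹ : Fˣ) - 1)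
  have i : IsUnit (1 + φ u) := by rw [e, add_sub_cancel]; exact Units.isUnit _
  refine ⟨LinearEquiv.dilatransvection i * g, Submodule.eq_of_le_of_finrank_eq ?_ ((LinearEquiv.finrank_map_eq _ _).trans h),
    Units.ext ?_⟩
  · rintro _ ⟨x, y, rfl⟩
    have : g x ∈ W := by simp [g, Submodule.prodEquivOfIsCompl_symm_apply_left _ _ a ⟨x, y⟩]
    exact add_mem this (W.smul_mem _ m)
  · rw [map_mul, Units.val_mul, LinearEquiv.coe_det, LinearEquiv.dilatransvection.coe_toLinearMap,
      LinearMap.transvection.det, e, add_sub_cancel]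
    exact Units.inv_mul _

theorem exists_sl_map {ι : Type*} [Fintype ι] [DecidableEq ι] {U W : Submodule F (ι → F)} (h : finrank F U = finrank F W) :
    ∃ g : SpecialLinearGroup ι F, U.map (SpecialLinearGroup.toLin' g).toLinearMap = W := by
  obtain ⟨g, a, b⟩ := exists_lin_map h
  obtain ⟨A, rfl⟩ := range_toLin'.ge b
  exact ⟨A, a⟩

theorem eq_vecMulVec {ι : Type*} [Fintype ι] [DecidableEq ι] {A : Matrix ι ι F} (h : A.rank ≤ 1) :
    ∃ u w, A = vecMulVec u w := by
  obtain ⟨u, k⟩ := finrank_le_one_iff.1 h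
  choose c hc using fun j => k ⟨_, Pi.single j 1, rfl⟩
  refine ⟨u.1, c, Matrix.ext fun i j => ?_⟩
  simpa [vecMulVec_apply, mul_comm] using (congrFun (congrArg Subtype.val (hc j)) i).symm

end H3
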