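import Cfsg.Agent.H4.Trv

/-! # Maps that are affine on triples of points -/

namespace H3

theorem affine_of_triples {p : ℕ} [Fact p.Prime] (hp : p ≠ 2) {V : Type*} [AddCommGroup V] [Module (ZMod p) V]
    {σ : Equiv.Perm V} (h : ∀ t : Fin 3 → V, ∃ (A : V ≃ₗ[ZMod p] V) (b : V), ∀ i, σ (t i) = A (t i) + b) :
    ∃ (A : V ≃ₗ[ZMod p] V) (b : V), ∀ x, σ x = A x + b := by
  have k : ∀ (c : ZMod p) x y, σ (c • x + (1 - c) • y) = c • σ x + (1 - c) • σ y := fun c x y => by
    obtain ⟨A, b, e⟩ := h ![c • x + (1 - c) • y, x, y]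
    have e0 := e 0
    have e1 := e 1
    have e2 := e 2
    simp only [Matrix.cons_val] at e0 e1 e2
    rw [e0, e1, e2, map_add, map_smul, map_smul]; module
  have h2 : (2 : ZMod p) ≠ 0 := fun z => hp ((Nat.prime_dvd_prime_iff_eq Fact.out Nat.prime_two).1
    ((ZMod.natCast_eq_zero_iff 2 p).1 z))
  have s : ∀ (c : ZMod p) x, σ (c • x) - σ 0 = c • (σ x - σ 0) := fun c x => by
    have := k c x 0
    rw [smul_zero, add_zero] at this
    rw [this]; module
  have h3 : (1 : ZMod p) - 2⁻¹ = 2⁻¹ := by field_simp; ring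
  let L : V →ₗ[ZMod p] V :=
    { toFun := fun x => σ x - σ 0
      map_smul' := s
      map_add' := fun x y => by
        have := k 2⁻¹ ((2 : ZMod p) • x) ((2 : ZMod p) • y)
        rw [h3, inv_smul_smul₀ h2, inv_smul_smul₀ h2, sub_eq_iff_eq_add.1 (s 2 x), sub_eq_iff_eq_add.1 (s 2 y), smul_add,
          smul_add, inv_smul_smul₀ h2, inv_smul_smul₀ h2] at this
        rw [this, ← h3]
        nth_rewrite 2 [h3]
        module }
  exact ⟨.ofBijective L ((Equiv.subRight (σ 0)).bijective.comp σ.bijective), σ 0, fun x => (sub_add_cancel _ _).symm⟩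

end H3
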